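import Groth.Agent.Ega3B.TensorASec
import Groth.Agent.Dcoh.KFlatFlip
import Groth.Agent.Dcoh.KFlatBdd
import Groth.Agent.Dcoh.TMod
import Groth.Agent.Dcoh.DerSch
import Groth.Agent.PerfC.CyclicGlue
import Groth.Agent.PerfB.TildeExact
import Groth.Prelude.Def_HTor

/-!
# `P ⊗ f^* K~ ⟶ P ⊗ f^* Q~` for `P` a bounded above complex of quasi-coherent modules flat over `A`

For `f : X ⟶ Spec A`, `P` bounded above with quasi-coherent terms flat over `A` and `u : K ⟶ Q` a
quasi-isomorphism of complexes of `A`-modules, `P ⊗_A K ⟶ P ⊗_A Q` is a quasi-isomorphism.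
-/

set_option autoImplicit false
set_option backward.defeqAttrib.useBackward true
set_option backward.isDefEq.respectTransparency false

universe u

open CategoryTheory CategoryTheory.Limits AlgebraicGeometry Opposite TopologicalSpace

namespace Groth.Agent.Htor.H249.FlatTensA

open Groth.Agent.Dcoh.KFlatAbs Groth.Agent.Dcoh.KFlatSingle Groth.Agent.Dcoh.KFlatBdd
  Groth.Agent.Dcoh.KFlatFlip Groth.Agent.Dcoh.KFlatMod

theorem mono_of_affine {X : Scheme.{u}} {M N : X.Modules} (φ : M ⟶ N)
    (h : ∀ V : X.Opens, IsAffineOpen V → Function.Injective (φ.app V)) : Mono φ := by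
  refine PerfB.TildeExact.mono_of_app_injective φ (fun U s t hst => ?_)
  refine PerfC.CyclicGlue.eq_of_locally M s t fun x hx => ?_
  obtain ⟨W, hW, hxW, hWU⟩ := exists_isAffineOpen_mem_and_subset (x := x) (U := U) hx
  refine ⟨W, hWU, hxW, h W hW ?_⟩
  rw [PerfC.CyclicGlue.app_res, PerfC.CyclicGlue.app_res, hst]

variable {A : Type u} [CommRing A] {X : Scheme.{u}} (f : X ⟶ Spec (CommRingCat.of A))

/-- `N ↦ f^* N~`. -/
noncomputable abbrev pullTil : ModuleCat.{u} A ⥤ X.Modules :=
  tilde.functor (CommRingCat.of A) ⋙ Scheme.Modules.pullback f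

instance : (pullTil f).IsLeftAdjoint :=
  ((tilde.adjunction (R := CommRingCat.of A)).comp
    (Scheme.Modules.pullbackPushforwardAdjunction f)).isLeftAdjoint

/-- `(M, N) ↦ M ⊗ f^* N~`. -/
noncomputable def FA : X.Modules ⥤ ModuleCat.{u} A ⥤ X.Modules :=
  DCoh.tensorBi ⋙ (Functor.whiskeringLeft _ _ _).obj (pullTil f)

instance additive_FA_obj (M : X.Modules) : ((FA f).obj M).Additive :=
  inferInstanceAs (pullTil f ⋙ DCoh.tensorBi.obj M).Additive

instance additive_FA : (FA f).Additive := by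
  unfold FA; infer_instance

instance preservesColimits_FA_obj (M : X.Modules) :
    PreservesColimitsOfSize.{0, 0} ((FA f).obj M) := by
  have : PreservesColimitsOfSize.{0, 0} (pullTil f) :=
    (Adjunction.ofIsLeftAdjoint (pullTil f)).leftAdjoint_preservesColimits
  exact inferInstanceAs (PreservesColimitsOfSize.{0, 0} (pullTil f ⋙ DCoh.tensorBi.obj M))

instance preservesColimits_FA_flip_obj (N : ModuleCat.{u} A) :
    PreservesColimitsOfSize.{0, 0} ((FA f).flip.obj N) :=
  inferInstanceAs (PreservesColimitsOfSize.{0, 0} (DCoh.tensorBi.flip.obj ((pullTil f).obj N)))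

/-- `N ↦ M ⊗ f^* N~` is exact for `M` quasi-coherent and flat over `A`. -/
theorem preservesHomology_FA_obj (M : X.Modules) (hM : Coh.IsQCoh M) (hfl : FlatMod.IsFlatOver f M) :
    ((FA f).obj M).PreservesHomology := by
  have h1 : ((FA f).obj M).PreservesMonomorphisms := by
    let _ : X.Over (Spec (CommRingCat.of A)) := ⟨f⟩
    have h2 : (CohIII.tensorAFunctor A M).PreservesMonomorphisms := ⟨fun {N N'} φ hφ => by
      refine mono_of_affine _ fun V hV => ?_
      have h3 := Ega3B.TensorASec.preservesMono_secFun (A := A) M hM hV hfl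
      exact (AddCommGrpCat.mono_iff_injective _).1 (h3.preserves φ)⟩
    exact Functor.PreservesMonomorphisms.of_iso (F := CohIII.tensorAFunctor A M)
      (Functor.isoWhiskerLeft (pullTil f) (Dcoh.TMod.braidIso M).symm)
  have h4 : PreservesFiniteColimits ((FA f).obj M) :=
    ⟨fun _ _ _ => inferInstance⟩
  exact Functor.preservesHomology_of_preservesMonos_and_cokernels _

lemma hasExactColimitsOfShape_nat (X : Scheme.{u}) : HasExactColimitsOfShape ℕ X.Modules := by
  have := Groth.Agent.Dcoh.DerSch.isGrothendieckAbelian X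
  infer_instance

/-- `P ⊗ f^* -` preserves acyclic complexes of `A`-modules. -/
theorem kfl_FA (P : CochainComplex X.Modules ℤ) (hq : ∀ i : ℤ, Coh.IsQCoh (P.X i))
    (bP : ∃ b : ℤ, ∀ i : ℤ, b < i → IsZero (P.X i)) (hfl : ∀ i : ℤ, FlatMod.IsFlatOver f (P.X i)) :
    KFl (FA f).flip P := by
  obtain ⟨b, hb⟩ := bP
  have : P.IsStrictlyLE b := (CochainComplex.isStrictlyLE_iff P b).2 hb
  have := hasExactColimitsOfShape_nat X
  exact kfl_of_isStrictlyLE (T := (FA f).flip) P b fun n => preservesHomology_FA_obj f _ (hq n) (hfl n)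

/-- `P ⊗_A K ⟶ P ⊗_A Q` is a quasi-isomorphism. -/
theorem quasiIso_tensorA (P : CochainComplex X.Modules ℤ) (hq : ∀ i : ℤ, Coh.IsQCoh (P.X i))
    (bP : ∃ b : ℤ, ∀ i : ℤ, b < i → IsZero (P.X i)) (hfl : ∀ i : ℤ, FlatMod.IsFlatOver f (P.X i))
    {K Q : DRing.Cx A} (v : K ⟶ Q) [QuasiIso v] :
    QuasiIso ((DCoh.tensorCx.obj P).map ((HTor.ofModuleCx f).map v)) :=
  quasiIso_of_kfl_flip (T := FA f) (kfl_FA f P hq bP hfl) v

end Groth.Agent.Htor.H249.FlatTensA
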