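import Groth.Prelude.Def_HTor
import Groth.Agent.Dcoh.DerPull
import Groth.Agent.PerfB.KProjFlat
import Groth.Agent.PerfB.TildeExact
import Groth.Agent.PerfA.TildeMain
import Groth.Agent.PerfA.HypAdj
import Groth.Agent.PerfC.TildeKFlat

/-!
# `RΓ(X, -) : D(O_X) ⥤ D(A)` and `Rf_*` for `f : X ⟶ Spec A`

* `hasRΓA f : HTor.HasRΓA f`;
* `RΓS A : D(O_{Spec A}) ⥤ D(A)`, right adjoint of `M ↦ M~` (`tildeAdj`);
* `exists_RΓAIso f : Nonempty (Rpush f ⋙ RΓS A ≅ HTor.RΓA f)`;
* `isIso_counit`: `(RΓS K)~ ≅ K` for `K` in `D_QCoh(Spec A)`;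
* `nonempty_tildeD_RΓA`: `(RΓ(X, K))~ ≅ Rf_* K` when `Rf_* K` is in `D_QCoh`, in particular for `K` in
  `D_QCoh(O_X)` and `f` quasi-compact and quasi-separated;
* `computes_iff`: `HTor.Computes f L K ↔ Nonempty (L~ ≅ Rf_* K)`.
-/

set_option autoImplicit false

universe u

open CategoryTheory CategoryTheory.Limits AlgebraicGeometry Opposite

attribute [local instance] HasDerivedCategory.standard

namespace Groth.Agent.Htor.H249.RGammaDict

open Groth.Agent.Dcoh.DerAbs Groth.Agent.Dcoh.DerHo Groth.Agent.Dcoh.DerAdj Groth.Agent.Dcoh.DerComp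
  Groth.Agent.Dcoh.DerSch Groth.Agent.Dcoh.DerPull Groth.Agent.PerfB.KProjFlat
  Groth.Agent.Dcoh.KFlatAbs

variable (A : Type u) [CommRing A]

/-- `M ↦ M~`, with source `ModuleCat A`. -/
noncomputable abbrev til : ModuleCat.{u} A ⥤ (Spec (CommRingCat.of A)).Modules :=
  tilde.functor (CommRingCat.of A)

/-- The global sections functor on `Spec A`, with target `ModuleCat A`. -/
noncomputable abbrev gam : (Spec (CommRingCat.of A)).Modules ⥤ ModuleCat.{u} A :=
  moduleSpecΓFunctor (R := CommRingCat.of A)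

/-- The adjunction `tilde ⊣ Γ`. -/
noncomputable def tilAdj : til A ⊣ gam A := tilde.adjunction (R := CommRingCat.of A)

instance additive_gam : (gam A).Additive := (tilAdj A).right_adjoint_additive

instance : PreservesFiniteLimits (til A) :=
  Groth.Agent.PerfB.TildeExact.preservesFiniteLimits_tilde (CommRingCat.of A)

instance : PreservesFiniteColimits (til A) :=
  Groth.Agent.PerfA.TildeMain.preservesFiniteColimits_tilde (CommRingCat.of A)

/-- K-flat complexes of `A`-modules. -/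
def kfl : ObjectProperty (CochainComplex (ModuleCat.{u} A) ℤ) := fun K => KFl (tens A) K

variable {A}

lemma isKFlat_til (K : CochainComplex (ModuleCat.{u} A) ℤ) (hK : kfl A K) :
    DCoh.IsKFlat (((til A).mapHomologicalComplex (ComplexShape.up ℤ)).obj K) :=
  Groth.Agent.PerfC.TildeKFlat.isKFlat_tilde (R := CommRingCat.of A) K (isZero_homology_tensor hK)

lemma exists_kfl' (K : CochainComplex (ModuleCat.{u} A) ℤ) :
    ∃ (L : CochainComplex (ModuleCat.{u} A) ℤ) (f : L ⟶ K), kfl A L ∧ QuasiIso f := by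
  obtain ⟨N, c, hc, hN⟩ := exists_kfl K
  exact ⟨N, c, hN, hc⟩

lemma tilData : LeftData (𝟭 _) (qis (ModuleCat.{u} A)) (mapQh (til A)) (ofCx (kfl A)) :=
  leftDataMap _ (kfl A) exists_kfl' (fun φ _ _ hφ => quasiIso_map_exact (til A) φ hφ)

variable {X : Scheme.{u}} (f : X ⟶ Spec (CommRingCat.of A))

/-- `M ↦ f^* M~`. -/
noncomputable abbrev pullTil : ModuleCat.{u} A ⥤ X.Modules := til A ⋙ Scheme.Modules.pullback f

/-- The adjunction `f^* ∘ tilde ⊣ Γ(X, -)`. -/
noncomputable def pullTilAdj : pullTil f ⊣ HTor.globalSectionsA f :=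
  (tilAdj A).comp (Scheme.Modules.pullbackPushforwardAdjunction f)

lemma pullTilData : LeftData (𝟭 _) (qis (ModuleCat.{u} A)) (mapQh (pullTil f)) (ofCx (kfl A)) :=
  leftDataMap _ (kfl A) exists_kfl' (fun φ hK hL hφ => quasiIso_pullback f
    (((til A).mapHomologicalComplex (ComplexShape.up ℤ)).map φ) (isKFlat_til _ hK) (isKFlat_til _ hL)
      (quasiIso_map_exact (til A) φ hφ))

/-- The derived functor `RΓA f` exists. -/
theorem hasRΓA : HTor.HasRΓA f := hasRightDerivedFunctor (hasKInj X) _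

variable (A) in
/-- `RΓ(Spec A, -) : D(O_{Spec A}) ⥤ D(A)` exists. -/
lemma hasRΓS : (mapQh (gam A)).HasRightDerivedFunctor (qis (Spec (CommRingCat.of A)).Modules) :=
  hasRightDerivedFunctor (hasKInj _) _

variable (A) in
/-- `RΓ(Spec A, -) : D(O_{Spec A}) ⥤ D(A)`. -/
noncomputable def RΓS : DCoh.D (Spec (CommRingCat.of A)) ⥤ Dual.D A :=
  haveI := hasRΓS A
  (mapQh (gam A)).totalRightDerived DerivedCategory.Qh (qis (Spec (CommRingCat.of A)).Modules)

variable (A) in
/-- The unit of `RΓS`. -/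
noncomputable def rΓSUnit : mapQh (gam A) ⟶ DerivedCategory.Qh ⋙ RΓS A :=
  haveI := hasRΓS A
  (mapQh (gam A)).totalRightDerivedUnit DerivedCategory.Qh (qis (Spec (CommRingCat.of A)).Modules)

instance : (RΓS A).IsRightDerivedFunctor (rΓSUnit A) (qis (Spec (CommRingCat.of A)).Modules) := by
  have := hasRΓS A
  dsimp only [RΓS, rΓSUnit]
  infer_instance

instance : (til A).mapDerivedCategory.IsLeftDerivedFunctor
    (til A).mapDerivedCategoryFactorsh.hom (qis (ModuleCat.{u} A)) :=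
  isLeftDerivedFunctor_mapDerivedCategory _

variable (A) in
/-- `M ↦ M~` on derived categories is left adjoint to `RΓ(Spec A, -)`. -/
noncomputable def tildeAdj : (til A).mapDerivedCategory ⊣ RΓS A :=
  derivedAdj (tilAdj A) (hasKInj _) tilData (til A).mapDerivedCategory
    (til A).mapDerivedCategoryFactorsh.hom (RΓS A) (rΓSUnit A)

section

variable [HTor.HasRΓA f]

/-- The unit of `RΓA f`. -/
noncomputable def rΓAUnit : HTor.gammaAKh f ⟶ DerivedCategory.Qh ⋙ HTor.RΓA f :=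
  (HTor.gammaAKh f).totalRightDerivedUnit DerivedCategory.Qh (qis X.Modules)

instance : (HTor.RΓA f).IsRightDerivedFunctor (rΓAUnit f) (qis X.Modules) := by
  dsimp [rΓAUnit]
  infer_instance

/-- `RΓ(X, -) ≅ RΓ(Spec A, Rf_* -)`. -/
theorem exists_RΓAIso [DCoh.HasRpush f] : Nonempty (DCoh.Rpush f ⋙ RΓS A ≅ HTor.RΓA f) := by
  have := hasLpull f
  have h3 : (mapQh (pullTil f)).HasLeftDerivedFunctor (qis (ModuleCat.{u} A)) :=
    (pullTilData f).hasLeftDerivedFunctor (W₀ := qis _) (DerivedCategory.Qh.leftUnitor)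
      (fun _ hw ↦ hw)
  let L₃ := (mapQh (pullTil f)).totalLeftDerived DerivedCategory.Qh (qis (ModuleCat.{u} A))
  let α₃ : DerivedCategory.Qh ⋙ L₃ ⟶ mapQh (pullTil f) :=
    (mapQh (pullTil f)).totalLeftDerivedCounit DerivedCategory.Qh (qis (ModuleCat.{u} A))
  obtain ⟨i, -⟩ := nonempty_compIso_left_of_isIso (Iso.refl (pullTil f))
    (tilData (A := A)) (pullTilData f) (til A).mapDerivedCategory
    (til A).mapDerivedCategoryFactorsh.hom (DCoh.Lpull f) (lpullCounit f)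
    (fun K hK ↦ isIso_lpullCounit_app f _ (isKFlat_til K.as hK)) L₃ α₃
  exact ⟨Adjunction.rightAdjointUniq (((tildeAdj A).comp (lpullAdj f)).ofNatIsoLeft i)
    (derivedAdj (pullTilAdj f) (hasKInj X) (pullTilData f) L₃ α₃ (HTor.RΓA f) (rΓAUnit f))⟩

end

section Tilde

instance full_til : (til A).mapDerivedCategory.Full where
  map_surjective {M N} :=
    (Groth.Agent.PerfA.TildeMain.bijective_map (CommRingCat.of A) M N).2

instance faithful_til : (til A).mapDerivedCategory.Faithful where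
  map_injective {M N} :=
    (Groth.Agent.PerfA.TildeMain.bijective_map (CommRingCat.of A) M N).1

instance isIso_unit : IsIso (tildeAdj A).unit := inferInstance

/-- `(RΓ(Spec A, K))~ ≅ K` for `K` in `D_QCoh(O_{Spec A})`. -/
theorem isIso_counit_app (K : DCoh.D (Spec (CommRingCat.of A))) (hK : DCoh.IsQCohD K) :
    IsIso ((tildeAdj A).counit.app K) := by
  obtain ⟨N, ⟨e⟩⟩ := Groth.Agent.PerfA.TildeMain.exists_iso (CommRingCat.of A) K hK
  exact (tildeAdj A).isIso_counit_app_of_iso e.symm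

lemma isQCohD_til (M : Dual.D A) : DCoh.IsQCohD ((til A).mapDerivedCategory.obj M) :=
  Groth.Agent.PerfA.TildeMain.isQCohD_map (CommRingCat.of A) M

/-- `(Q L)~ = Q (L~)`. -/
noncomputable def tilQ (L : DRing.Cx A) :
    (til A).mapDerivedCategory.obj (DRing.toD L) ≅
      DCoh.toD (Spec (CommRingCat.of A)) (((til A).mapHomologicalComplex (ComplexShape.up ℤ)).obj L) :=
  (til A).mapDerivedCategoryFactors.app L

end Tilde

section Main

variable [HTor.HasRΓA f] [DCoh.HasRpush f]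

/-- `RΓ(X, -) ≅ RΓ(Spec A, Rf_* -)`, chosen isomorphism. -/
noncomputable def rΓAIso : DCoh.Rpush f ⋙ RΓS A ≅ HTor.RΓA f := (exists_RΓAIso f).some

/-- The natural map `(RΓ(X, K))~ ⟶ Rf_* K`. -/
noncomputable def tildeRΓA : HTor.RΓA f ⋙ (til A).mapDerivedCategory ⟶ DCoh.Rpush f :=
  Functor.whiskerRight (rΓAIso f).inv (til A).mapDerivedCategory ≫ (Functor.associator _ _ _).hom ≫
    Functor.whiskerLeft (DCoh.Rpush f) (tildeAdj A).counit ≫ (Functor.rightUnitor _).hom

/-- `(RΓ(X, K))~ ≅ Rf_* K` if `Rf_* K` is in `D_QCoh`. -/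
theorem isIso_tildeRΓA_app (K : DCoh.D X) (hK : DCoh.IsQCohD ((DCoh.Rpush f).obj K)) :
    IsIso ((tildeRΓA f).app K) := by
  have := isIso_counit_app _ hK
  dsimp only [tildeRΓA, NatTrans.comp_app, Functor.whiskerRight_app, Functor.whiskerLeft_app,
    Functor.associator_hom_app]
  infer_instance

/-- `(RΓ(X, K))~ ≅ Rf_* K` if `Rf_* K` is in `D_QCoh`. -/
noncomputable def tildeRΓAIso' (K : DCoh.D X) (hK : DCoh.IsQCohD ((DCoh.Rpush f).obj K)) :
    (til A).mapDerivedCategory.obj ((HTor.RΓA f).obj K) ≅ (DCoh.Rpush f).obj K :=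
  haveI := isIso_tildeRΓA_app f K hK
  asIso ((tildeRΓA f).app K)

/-- `(RΓ(X, K))~ ≅ Rf_* K` for `K` in `D_QCoh(O_X)` and `f` quasi-compact and quasi-separated. -/
noncomputable def tildeRΓAIso [QuasiCompact f] [QuasiSeparated f] (K : DCoh.D X) (hK : DCoh.IsQCohD K) :
    (til A).mapDerivedCategory.obj ((HTor.RΓA f).obj K) ≅ (DCoh.Rpush f).obj K :=
  tildeRΓAIso' f K (Groth.Agent.PerfA.HypAdj.isQCohD_Rpush f hK)

/-- `L` computes `RΓ(X, K)` iff `L~ ≅ Rf_* K`, if `Rf_* K` is in `D_QCoh`. -/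
theorem computes_iff' (K : DCoh.D X) (hK : DCoh.IsQCohD ((DCoh.Rpush f).obj K)) (L : DRing.Cx A) :
    HTor.Computes f L K ↔ Nonempty (DCoh.toD (Spec (CommRingCat.of A))
      (((til A).mapHomologicalComplex (ComplexShape.up ℤ)).obj L) ≅ (DCoh.Rpush f).obj K) := by
  constructor
  · rintro ⟨e⟩
    exact ⟨(tilQ L).symm ≪≫ (til A).mapDerivedCategory.mapIso e ≪≫ tildeRΓAIso' f K hK⟩
  · rintro ⟨e⟩
    exact ⟨(til A).mapDerivedCategory.preimageIso (tilQ L ≪≫ e ≪≫ (tildeRΓAIso' f K hK).symm)⟩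

/-- `L` computes `RΓ(X, K)` iff `L~ ≅ Rf_* K`, for `K` in `D_QCoh(O_X)`, `f` quasi-compact and
quasi-separated. -/
theorem computes_iff [QuasiCompact f] [QuasiSeparated f] (K : DCoh.D X) (hK : DCoh.IsQCohD K)
    (L : DRing.Cx A) :
    HTor.Computes f L K ↔ Nonempty (DCoh.toD (Spec (CommRingCat.of A))
      (((til A).mapHomologicalComplex (ComplexShape.up ℤ)).obj L) ≅ (DCoh.Rpush f).obj K) :=
  computes_iff' f K (Groth.Agent.PerfA.HypAdj.isQCohD_Rpush f hK) L

/-- The same in terms of `DCoh.tildeD`. -/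
theorem computes_iff_tildeD [QuasiCompact f] [QuasiSeparated f] (K : DCoh.D X) (hK : DCoh.IsQCohD K)
    (L : DRing.Cx A) :
    HTor.Computes f L K ↔
      Nonempty ((DCoh.tildeD (CommRingCat.of A)).obj (DRing.toD L) ≅ (DCoh.Rpush f).obj K) :=
  (computes_iff f K hK L).trans ⟨fun ⟨e⟩ => ⟨tilQ L ≪≫ e⟩, fun ⟨e⟩ => ⟨(tilQ L).symm ≪≫ e⟩⟩

end Main

end Groth.Agent.Htor.H249.RGammaDict
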